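import Cfsg.Agent.Lib.Helper83.SchurDual
import Cfsg.Agent.Lib.Helper83.Basic
import Cfsg.Agent.Lib.Helper78.FrobSchur2
import Cfsg.Agent.Lib.Helper5.Clifford
import Cfsg.Agent.S0153

set_option autoImplicit false

namespace Cfsg.Agent.Lib.Helper83

open Cfsg.Agent.Lib.Helper19 Cfsg.Agent.Lib.Helper20 Cfsg.Agent.Lib.Helper5 Cfsg.Agent.Lib.Helper78
open scoped ComplexConjugate

theorem isIrreducible_of_isIrrCharacter {N : Type*} [Group N] [Finite N] {V : Type*}
    [AddCommGroup V] [Module ℂ V] [FiniteDimensional ℂ V] {ρ : Representation ℂ N V}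
    (h : IsIrrCharacter N ρ.character) : ρ.IsIrreducible := by
  obtain ⟨n, σ, hσ, hchar⟩ := h
  obtain ⟨φ⟩ := Cfsg.Agent.S0153.result σ ρ hchar
  exact Helper20.isIrreducible_of_equiv φ hσ

/-- general formula for the indicator of an induced function -/
theorem fsNu_indFun {G : Type*} [Group G] [Fintype G] (I : Subgroup G) (ψ : I → ℂ) :
    fsNu (indFun I ψ) = (Nat.card I : ℂ)⁻¹ * ∑ s : G, extendByZero I ψ (s * s) := by
  unfold fsNu
  simp only [Helper19.indFun_apply]
  rw [← Finset.mul_sum, Finset.sum_comm]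
  have h1 : ∀ x : G, ∑ s : G, extendByZero I ψ (x⁻¹ * (s * s) * x)
      = ∑ s : G, extendByZero I ψ (s * s) := by
    intro x
    rw [← Equiv.sum_comp (MulAut.conj x⁻¹).toEquiv (fun s => extendByZero I ψ (s * s))]
    apply Finset.sum_congr rfl
    intro s _
    congr 1
    simp only [MulEquiv.toEquiv_eq_coe, EquivLike.coe_coe, MulAut.conj_apply, inv_inv]
    group
  simp only [h1]
  rw [Finset.sum_const, Finset.card_univ, nsmul_eq_mul, ← Nat.card_eq_fintype_card]
  have hG : (Nat.card G : ℂ) ≠ 0 := Helper20.card_ne_zero_complex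
  field_simp

/-- key vanishing: the sum of `ψ((sn)²)` over a coset of `N` outside the inertia group. -/
theorem sum_coset_sq_eq_zero {G : Type*} [Group G] [Finite G] (N I : Subgroup G) (hN : N.Normal)
    (hNI : N ≤ I) [Fintype N] (φ : N → ℂ) (hφ : IsIrrCharacter N φ)
    (ψ : I → ℂ) (hψ : IsCharacter I ψ)
    (hext : ∀ n : N, ψ ⟨n, hNI n.2⟩ = φ n) (hreal : ∀ n, (φ n).im = 0)
    (s : G) (hs : cjF hN φ s⁻¹ ≠ φ) (a : I) :
    ∑ n : N, ψ (a * ⟨s⁻¹ * n * s, hNI (by
      have := hN.conj_mem n n.2 s⁻¹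
      rwa [inv_inv] at this)⟩ * ⟨n, hNI n.2⟩) = 0 := by
  classical
  obtain ⟨d, ρ, rfl⟩ := hψ
  let ρ₁ : Representation ℂ N (Fin d → ℂ) := ρ.comp (Subgroup.inclusion hNI)
  let c : N →* N := (@MulAut.conjNormal G _ N hN s⁻¹).toMonoidHom
  let ρ₂ : Representation ℂ N (Fin d → ℂ) := ρ₁.comp c
  have hc₁ : ρ₁.character = φ := by
    funext n
    exact hext n
  have hc₂ : ρ₂.character = cjF hN φ s⁻¹ := by
    rw [cjF_eq_comp, ← hc₁]
    rfl
  have h₂ : ρ₂.IsIrreducible := by
    apply isIrreducible_of_isIrrCharacter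
    rw [hc₂]
    exact isIrrCharacter_cjF hN hφ s⁻¹
  have hne : ρ₂.character ≠ fun n => ρ₁.character n⁻¹ := by
    rw [hc₂, hc₁]
    intro h
    apply hs
    rw [h]
    funext n
    rw [isChar_inv (IsIrr.isChar hφ)]
    exact Complex.conj_eq_iff_im.mpr (hreal n)
  have h0 := sum_comp_eq_zero ρ₁ ρ₂ h₂ hne
  have h1 : ∀ n : N, ρ.character (a * ⟨s⁻¹ * n * s, hNI (by
      have := hN.conj_mem n n.2 s⁻¹
      rwa [inv_inv] at this)⟩ * ⟨n, hNI n.2⟩) = LinearMap.trace ℂ _ (ρ a * (ρ₂ n * ρ₁ n)) := by
    intro n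
    unfold Representation.character
    congr 1
    have e2 : ρ₂ n = ρ ⟨s⁻¹ * n * s, hNI (by
      have := hN.conj_mem n n.2 s⁻¹
      rwa [inv_inv] at this)⟩ := by
      show ρ (Subgroup.inclusion hNI (c n)) = ρ _
      congr 1
      apply Subtype.ext
      simp [c]
    have e1 : ρ₁ n = ρ ⟨n, hNI n.2⟩ := rfl
    rw [e2, e1, ← map_mul ρ, ← map_mul ρ, mul_assoc]
  simp only [h1]
  rw [← map_sum, ← Finset.mul_sum, h0, mul_zero, map_zero]

/-- the Frobenius–Schur indicator is preserved by induction from the inertia group of a real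
irreducible character `φ` of `N` for extensions `ψ` of `φ`. -/
theorem fsNu_indFun_of_inertia {G : Type*} [Group G] [Fintype G] (N I : Subgroup G)
    (hN : N.Normal) (hNI : N ≤ I) [Fintype I] (φ : N → ℂ) (hφ : IsIrrCharacter N φ)
    (hT : ∀ g : G, g ∈ I ↔ ∀ n : N, φ ⟨g * n * g⁻¹, hN.conj_mem (n : G) n.2 g⟩ = φ n)
    (ψ : I → ℂ) (hψ : IsCharacter I ψ)
    (hext : ∀ n : N, ψ ⟨n, hNI n.2⟩ = φ n) (hreal : ∀ n, (φ n).im = 0) :
    fsNu (indFun I ψ) = fsNu ψ := by
  classical
  have : Fintype N := Fintype.ofFinite N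
  rw [fsNu_indFun]
  unfold fsNu
  congr 1
  rw [← Finset.sum_filter_add_sum_filter_not Finset.univ (fun s : G => s ∈ I)]
  have h1 : ∑ s ∈ Finset.univ.filter (fun s : G => s ∈ I), extendByZero I ψ (s * s)
      = ∑ s : I, ψ (s * s) := by
    rw [Finset.sum_subtype (Finset.univ.filter (fun s : G => s ∈ I)) (p := fun s => s ∈ I)
      (by intro x; simp)]
    apply Finset.sum_congr rfl
    intro s _
    rw [← Subgroup.coe_mul, Helper19.extendByZero_coe]
  have h2 : ∑ s ∈ Finset.univ.filter (fun s : G => ¬ s ∈ I), extendByZero I ψ (s * s) = 0 := by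
    rw [Finset.sum_filter]
    set g : G → ℂ := fun s => if ¬ s ∈ I then extendByZero I ψ (s * s) else 0 with hg
    have h3 : (Nat.card N : ℂ) * ∑ s : G, g s = ∑ s : G, ∑ n : N, g (s * n) := by
      rw [Finset.sum_comm]
      have : ∀ n : N, ∑ s : G, g (s * n) = ∑ s : G, g s :=
        fun n => Equiv.sum_comp (Equiv.mulRight (n : G)) g
      simp only [this]
      rw [Finset.sum_const, Finset.card_univ, nsmul_eq_mul, Nat.card_eq_fintype_card]
    have h4 : ∀ s : G, ∑ n : N, g (s * n) = 0 := by
      intro s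
      by_cases hs : s ∈ I
      · apply Finset.sum_eq_zero
        intro n _
        have : s * n ∈ I := I.mul_mem hs (hNI n.2)
        simp only [hg, this, not_true_eq_false, if_false]
      · have hsn : ∀ n : N, ¬ s * n ∈ I := by
          intro n h
          apply hs
          have := I.mul_mem h (I.inv_mem (hNI n.2))
          simpa using this
        have hconj : ∀ n : N, s⁻¹ * n * s ∈ N := by
          intro n
          have := hN.conj_mem n n.2 s⁻¹
          rwa [inv_inv] at this
        have hsq : ∀ n : N, (s * n) * (s * n) = (s * s) * (s⁻¹ * n * s) * n := by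
          intro n
          group
        by_cases hss : s * s ∈ I
        · have hs' : cjF hN φ s⁻¹ ≠ φ := by
            intro h
            apply hs
            have : s⁻¹ ∈ I := by
              rw [hT]
              intro n
              exact congrFun h n
            simpa using I.inv_mem this
          have h5 := sum_coset_sq_eq_zero N I hN hNI φ hφ ψ hψ hext hreal s hs' ⟨s * s, hss⟩
          rw [← h5]
          apply Finset.sum_congr rfl
          intro n _
          simp only [hg, hsn n, not_false_eq_true, if_true]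
          rw [hsq n]
          exact Helper19.extendByZero_coe I ψ
            (⟨s * s, hss⟩ * ⟨s⁻¹ * n * s, hNI (hconj n)⟩ * ⟨n, hNI n.2⟩)
        · apply Finset.sum_eq_zero
          intro n _
          simp only [hg, hsn n, not_false_eq_true, if_true]
          apply Helper19.extendByZero_of_not_mem
          rw [hsq n]
          intro h
          apply hss
          have h6 := I.mul_mem (I.mul_mem h (I.inv_mem (hNI n.2))) (I.inv_mem (hNI (hconj n)))
          simpa [mul_assoc] using h6
    simp only [h4, Finset.sum_const_zero] at h3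
    rcases mul_eq_zero.mp h3 with h | h
    · exact absurd h (Helper19.card_ne_zero_complex N)
    · exact h
  rw [h1, h2, add_zero]

end Cfsg.Agent.Lib.Helper83
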