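import Cfsg.Agent.Lib.Helper83.CliffCorr
import Cfsg.Agent.Lib.Helper82.Linear
import Cfsg.Agent.S0868

set_option autoImplicit false

namespace Cfsg.Agent.Lib.Helper83

open Cfsg.Agent.Lib.Helper19 Cfsg.Agent.Lib.Helper20 Cfsg.Agent.Lib.Helper5
open scoped ComplexConjugate

/-- the number of irreducible characters of `G` extending a given irreducible character `ν` of
`I` is at most `[G : I]`. -/
theorem card_extensions_le {G : Type*} [Group G] [Fintype G] (I : Subgroup G)
    (ν : I → ℂ) (hν : IsIrrCharacter I ν) (s : Finset (IrrCharacter G))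
    (hs : ∀ lam ∈ s, (fun x : I => (lam : G → ℂ) x) = ν) : s.card ≤ I.index := by
  classical
  have : Fintype I := Fintype.ofFinite I
  have := finite_irrCharacter (G := G)
  have := Fintype.ofFinite (IrrCharacter G)
  have hX : IsCharacter G (indFun I ν) := isCharacter_indFun I ν (isCharacter_of_isIrrCharacter hν)
  have hm : ∀ χ : IrrCharacter G, ∃ n : ℕ, classInner (indFun I ν) (χ : G → ℂ) = n :=
    fun χ => isCharacter_classInner_nat hX χ.2
  choose m hm using hm
  have h1 : ((I.index * charDegree ν : ℕ) : ℂ)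
      = ((∑ χ : IrrCharacter G, m χ * charDegree (χ : G → ℂ) : ℕ) : ℂ) := by
    push_cast
    rw [← Cfsg.Agent.Lib.Helper82.isChar_one_eq (isCharacter_of_isIrrCharacter hν),
      ← indFun_apply_one]
    conv_lhs => rw [eq_sum_classInner_smul (indFun_isClassFunction I ν)]
    rw [Finset.sum_apply]
    apply Finset.sum_congr rfl
    intro χ _
    rw [Pi.smul_apply, hm, smul_eq_mul,
      Cfsg.Agent.Lib.Helper82.isChar_one_eq (isCharacter_of_isIrrCharacter χ.2)]
  have h2 : I.index * charDegree ν = ∑ χ : IrrCharacter G, m χ * charDegree (χ : G → ℂ) := by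
    exact_mod_cast h1
  have h3 : ∀ lam ∈ s, m lam * charDegree (lam : G → ℂ) = charDegree ν := by
    intro lam hl
    have h4 : (m lam : ℂ) = 1 := by
      rw [← hm, frobenius_reciprocity I ν _
        (isClassFunction_of_isCharacter (isCharacter_of_isIrrCharacter lam.2)), hs lam hl,
        classInner_irr_self hν]
    have h5 : m lam = 1 := by exact_mod_cast h4
    rw [h5, one_mul]
    have h6 : (lam : G → ℂ) 1 = ν 1 := congrFun (hs lam hl) 1
    unfold charDegree
    rw [h6]
  have h4 : s.card * charDegree ν ≤ I.index * charDegree ν := by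
    rw [h2]
    calc s.card * charDegree ν = ∑ lam ∈ s, m lam * charDegree (lam : G → ℂ) := by
          rw [Finset.sum_congr rfl h3, Finset.sum_const, smul_eq_mul]
      _ ≤ ∑ χ : IrrCharacter G, m χ * charDegree (χ : G → ℂ) :=
          Finset.sum_le_sum_of_subset (Finset.subset_univ s)
  exact Nat.le_of_mul_le_mul_right h4 (Cfsg.Agent.Lib.Helper82.isIrr_charDegree_pos hν)

/-- a non-abelian minimal normal subgroup lies in the commutator subgroup -/
theorem le_commutator_of_minimal_nonabelian {G : Type*} [Group G] (N : Subgroup G)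
    (hN : N.Normal) (hmin : ∀ M : Subgroup G, M.Normal → M ≤ N → M = ⊥ ∨ M = N)
    (hna : ¬ IsMulCommutative ↥N) : N ≤ commutator G := by
  have h1 : (⁅N, N⁆ : Subgroup G).Normal := Subgroup.commutator_normal N N
  have h2 : ⁅N, N⁆ ≤ N := Subgroup.commutator_le_left N N
  rcases hmin _ h1 h2 with h | h
  · exfalso
    apply hna
    rw [Subgroup.commutator_eq_bot_iff_le_centralizer] at h
    refine ⟨⟨fun a b => ?_⟩⟩
    apply Subtype.ext
    have := (Subgroup.mem_centralizer_iff.mp (h a.2)) b b.2
    exact this.symm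
  · calc N = ⁅N, N⁆ := h.symm
      _ ≤ ⁅(⊤ : Subgroup G), ⊤⁆ := Subgroup.commutator_mono le_top le_top
      _ = commutator G := rfl

/-- if `ψ` restricts irreducibly to the normal subgroup `M`, every coset of `M` contains an
element where `ψ` does not vanish. -/
theorem exists_ne_zero_in_coset {K : Type*} [Group K] [Fintype K] (M : Subgroup K) [M.Normal]
    {ψ : K → ℂ} (hψ : IsIrrCharacter K ψ) (hψM : IsIrrCharacter M (fun n : M => ψ n)) (g : K) :
    ∃ n : M, ψ ((n : K) * g) ≠ 0 := by
  classical
  have : Fintype M := Fintype.ofFinite M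
  have h := (Cfsg.Agent.S0868.result M ψ hψ hψM ψ hψ _ rfl).2.2 rfl
  have h1 := congrFun h g
  by_contra hcon
  push Not at hcon
  simp only [hcon, zero_mul, Finset.sum_const_zero, mul_zero] at h1
  exact zero_ne_one h1

end Cfsg.Agent.Lib.Helper83
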