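import Mathlib.RepresentationTheory.Character
import Mathlib.RepresentationTheory.Irreducible
import Mathlib.Analysis.Complex.Basic

set_option autoImplicit false

namespace Cfsg.Agent.Lib.Helper83

open Representation

/-- Schur orthogonality against the dual: if `ρ₂` is irreducible and is not the dual of `ρ₁`
(same dimension), then `∑ₙ f (ρ₁ n w) • ρ₂ n v = 0`. -/
theorem schur_orth_dual {N : Type*} [Group N] [Fintype N] {V : Type*} [AddCommGroup V]
    [Module ℂ V] [FiniteDimensional ℂ V]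
    (ρ₁ ρ₂ : Representation ℂ N V) (h₂ : ρ₂.IsIrreducible)
    (hne : ρ₂.character ≠ fun n => ρ₁.character n⁻¹) (v w : V)
    (f : Module.Dual ℂ V) : ∑ n : N, f (ρ₁ n w) • ρ₂ n v = 0 := by
  classical
  let E : Module.Dual ℂ V →ₗ[ℂ] V :=
    (LinearMap.toSpanSingleton ℂ V v) ∘ₗ (Module.Dual.eval ℂ V w)
  have hE : ∀ f : Module.Dual ℂ V, E f = f w • v := fun f => rfl
  let Q : Module.Dual ℂ V →ₗ[ℂ] V := ∑ n : N, (ρ₂ n) ∘ₗ E ∘ₗ (ρ₁.dual n⁻¹)
  have hQ : ∀ f : Module.Dual ℂ V, Q f = ∑ n : N, f (ρ₁ n w) • ρ₂ n v := by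
    intro f
    simp only [Q, LinearMap.sum_apply, LinearMap.comp_apply, hE, map_smul]
    apply Finset.sum_congr rfl
    intro n _
    rw [Representation.dual_apply, inv_inv]
    rfl
  have hint : ∀ (g : N) (x : Module.Dual ℂ V), Q (ρ₁.dual g x) = ρ₂ g (Q x) := by
    intro g x
    rw [hQ, hQ, map_sum, ← Equiv.sum_comp (Equiv.mulLeft g)]
    apply Finset.sum_congr rfl
    intro n _
    rw [Equiv.coe_mulLeft, map_smul, Representation.dual_apply, map_mul, map_mul]
    simp only [Module.End.mul_apply]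
    congr 1
    show x (ρ₁ g⁻¹ (ρ₁ g (ρ₁ n w))) = x (ρ₁ n w)
    rw [← Module.End.mul_apply, ← map_mul, inv_mul_cancel, map_one]
    rfl
  let F : IntertwiningMap ρ₁.dual ρ₂ := LinearMap.intertwiningMap_of_isIntertwiningMap _ _ Q hint
  rw [← hQ]
  rcases IsIrreducible.surjective_or_eq_zero (ρ := ρ₂) F with h | h
  · exfalso
    apply hne
    have hsurj : Function.Surjective Q := h
    have hinj : Function.Injective Q :=
      (LinearMap.injective_iff_surjective_of_finrank_eq_finrank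
        (Subspace.dual_finrank_eq (K := ℂ) (V := V))).mpr hsurj
    have hbij : Function.Bijective F := ⟨hinj, hsurj⟩
    have := Representation.char_iso (F.ofBijective hbij)
    rw [← this]
    funext n
    exact Representation.char_dual ρ₁ n
  · have : Q = 0 := congrArg IntertwiningMap.toLinearMap h
    rw [this]
    rfl

/-- consequence: `∑ₙ ρ₂ n ∘ ρ₁ n = 0`. -/
theorem sum_comp_eq_zero {N : Type*} [Group N] [Fintype N] {V : Type*} [AddCommGroup V]
    [Module ℂ V] [FiniteDimensional ℂ V]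
    (ρ₁ ρ₂ : Representation ℂ N V) (h₂ : ρ₂.IsIrreducible)
    (hne : ρ₂.character ≠ fun n => ρ₁.character n⁻¹) : ∑ n : N, ρ₂ n * ρ₁ n = 0 := by
  classical
  let b := Module.finBasis ℂ V
  ext w
  rw [LinearMap.sum_apply, LinearMap.zero_apply]
  have h1 : ∀ n : N, (ρ₂ n * ρ₁ n) w = ∑ j, b.coord j (ρ₁ n w) • ρ₂ n (b j) := by
    intro n
    rw [Module.End.mul_apply]
    conv_lhs => rw [← b.sum_repr (ρ₁ n w)]
    rw [map_sum]
    apply Finset.sum_congr rfl
    intro j _
    rw [map_smul]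
    rfl
  simp only [h1]
  rw [Finset.sum_comm]
  apply Finset.sum_eq_zero
  intro j _
  exact schur_orth_dual ρ₁ ρ₂ h₂ hne (b j) w (b.coord j)

end Cfsg.Agent.Lib.Helper83
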