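import Cfsg.Agent.Lib.Helper83.TwoClassN
import Cfsg.Agent.Lib.Helper83.Basic2

set_option autoImplicit false

open scoped ComplexConjugate

namespace Cfsg.Agent.Lib.Helper83

universe u

variable {G : Type u} [Group G]

theorem TwoClassData.card_otherKer [Finite G] {χ : IrrCharacter G} {c : G} {k n : ℕ}
    (D : TwoClassData χ c k n) : Nat.card (otherKer χ) = k + 1 := by
  classical
  have := Fintype.ofFinite G
  have h := sum_two_class (fun g => if g ∈ otherKer χ then (1 : ℂ) else 0) c D.c_ne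
    (fun g hg hg2 => by
      rw [if_neg]
      intro hmem
      exact hg2 (D.isConj_of_mem hmem hg))
    (fun g hg => by
      rw [if_pos D.c_mem, if_pos]
      exact (D.mem_otherKer_iff g).mpr ((D.supp g).mpr (Or.inr hg)))
  simp only [if_pos D.c_mem, if_pos (otherKer χ).one_mem, mul_one, ← D.k_eq] at h
  rw [Finset.sum_ite, Finset.sum_const_zero, add_zero, Finset.sum_const, nsmul_eq_mul, mul_one] at h
  have h2 : Nat.card (otherKer χ) = (Finset.univ.filter (fun g => g ∈ otherKer χ)).card := by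
    rw [Nat.card_eq_fintype_card, Fintype.card_subtype]
  rw [h2]
  have : (((Finset.univ.filter (fun g => g ∈ otherKer χ)).card : ℕ) : ℂ) = ((k + 1 : ℕ) : ℂ) := by
    rw [h]; push_cast; ring
  exact_mod_cast this

theorem TwoClassData.centralizer_isPGroup [Finite G] {χ : IrrCharacter G} {c : G} {k n : ℕ}
    (D : TwoClassData χ c k n) (p : ℕ) [Fact p.Prime] (hp : IsPGroup p (otherKer χ))
    {x : G} (hx : x ∈ otherKer χ) (hx1 : x ≠ 1) :
    IsPGroup p (Subgroup.centralizer ({x} : Set G)) := by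
  classical
  have hpp : p.Prime := Fact.out
  rw [IsPGroup.iff_card]
  refine ⟨_, Nat.eq_prime_pow_of_unique_prime_dvd (Nat.card_pos).ne' ?_⟩
  intro q hq hqd
  by_contra hqp
  have : Fact q.Prime := ⟨hq⟩
  obtain ⟨y, hy⟩ := exists_prime_orderOf_dvd_card' q hqd
  have hyq : (y : G) ^ q = 1 := by
    have : y ^ q = 1 := by rw [← hy]; exact pow_orderOf_eq_one y
    exact_mod_cast congrArg Subtype.val this
  have hy1 : (y : G) ≠ 1 := by
    intro h
    have : y = 1 := Subtype.ext h
    rw [this, orderOf_one] at hy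
    exact hq.one_lt.ne hy
  have hcop : ∀ j : ℕ, Nat.Coprime q (p ^ j) :=
    fun j => Nat.Coprime.pow_right j ((Nat.coprime_primes hq hpp).mpr hqp)
  have hyN : (y : G) ∉ otherKer χ := by
    intro hmem
    obtain ⟨j, hj⟩ := hp ⟨y, hmem⟩
    have hj' : (y : G) ^ (p ^ j) = 1 := by simpa using congrArg Subtype.val hj
    have h1 : orderOf (y : G) ∣ q := orderOf_dvd_of_pow_eq_one hyq
    have h2 : orderOf (y : G) ∣ p ^ j := orderOf_dvd_of_pow_eq_one hj'
    have h3 : orderOf (y : G) ∣ 1 := by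
      rw [← Nat.Coprime.gcd_eq_one (hcop j)]; exact Nat.dvd_gcd h1 h2
    exact hy1 (orderOf_eq_one_iff.mp (Nat.dvd_one.mp h3))
  obtain ⟨g, hg⟩ := isConj_iff.mp (D.isConj_mul hyN hx)
  have hcomm : Commute (y : G) x := by
    have := Subgroup.mem_centralizer_iff.mp y.2 x (Set.mem_singleton x)
    exact this.symm
  have h4 : ((y : G) * x) ^ q = 1 := by
    rw [← hg, conj_pow, hyq]; simp
  rw [hcomm.mul_pow, hyq, one_mul] at h4
  obtain ⟨j, hj⟩ := hp ⟨x, hx⟩
  have hj' : x ^ (p ^ j) = 1 := by simpa using congrArg Subtype.val hj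
  have h1 : orderOf x ∣ q := orderOf_dvd_of_pow_eq_one h4
  have h2 : orderOf x ∣ p ^ j := orderOf_dvd_of_pow_eq_one hj'
  have h3 : orderOf x ∣ 1 := by
    rw [← Nat.Coprime.gcd_eq_one (hcop j)]; exact Nat.dvd_gcd h1 h2
  exact hx1 (orderOf_eq_one_iff.mp (Nat.dvd_one.mp h3))

theorem TwoClassData.index_centralizer [Finite G] {χ : IrrCharacter G} {c : G} {k n : ℕ}
    (D : TwoClassData χ c k n) {x : G} (hx : x ∈ otherKer χ) (hx1 : x ≠ 1) :
    (Subgroup.centralizer ({x} : Set G)).index = k := by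
  rw [← card_class_eq_index, D.k_eq]
  apply Nat.card_congr
  apply Equiv.subtypeEquivRight
  intro g
  have h := D.isConj_of_mem hx hx1
  exact ⟨fun h2 => h.trans h2, fun h2 => h.symm.trans h2⟩

theorem TwoClassData.not_dvd_k [Finite G] {χ : IrrCharacter G} {c : G} {k n : ℕ}
    (D : TwoClassData χ c k n) (p : ℕ) [Fact p.Prime] (hp : IsPGroup p (otherKer χ)) :
    ¬ p ∣ k := by
  have hpp : p.Prime := Fact.out
  obtain ⟨j, hj⟩ := IsPGroup.iff_card.mp hp
  rw [D.card_otherKer] at hj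
  intro hd
  have hj0 : j ≠ 0 := by
    rintro rfl
    have := D.k_pos
    simp at hj
    omega
  have h1 : p ∣ k + 1 := by rw [hj]; exact dvd_pow_self p hj0
  have h2 : p ∣ 1 := (Nat.dvd_add_right hd).mp h1
  exact hpp.one_lt.ne' (Nat.dvd_one.mp h2)

theorem TwoClassData.centralizer_sylow [Finite G] {χ : IrrCharacter G} {c : G} {k n : ℕ}
    (D : TwoClassData χ c k n) (p : ℕ) [Fact p.Prime] (hp : IsPGroup p (otherKer χ))
    {x : G} (hx : x ∈ otherKer χ) (hx1 : x ≠ 1) :
    ∃ P : Sylow p G, Subgroup.centralizer ({x} : Set G) = P :=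
  ⟨(D.centralizer_isPGroup p hp hx hx1).toSylow
    (by rw [D.index_centralizer hx hx1]; exact D.not_dvd_k p hp), by simp⟩

end Cfsg.Agent.Lib.Helper83
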