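import Cfsg.Agent.Lib.Helper83.TwoClassP

set_option autoImplicit false

open scoped ComplexConjugate

namespace Cfsg.Agent.Lib.Helper83

universe u

variable {G : Type u} [Group G]

theorem card_centralizer_quotient [Finite G] (N : Subgroup G) [N.Normal] (x : G)
    (h : ∀ a ∈ N, IsConj x (x * a)) :
    Nat.card (Subgroup.centralizer ({x} : Set G)) =
      Nat.card (Subgroup.centralizer ({(x : G ⧸ N)} : Set (G ⧸ N))) := by
  classical
  have hset : {g : G | IsConj x g} =
      (QuotientGroup.mk : G → G ⧸ N) ⁻¹' {y : G ⧸ N | IsConj (x : G ⧸ N) y} := by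
    ext g
    simp only [Set.mem_setOf_eq, Set.mem_preimage]
    constructor
    · intro hg
      obtain ⟨y, hy⟩ := isConj_iff.mp hg
      rw [isConj_iff]
      exact ⟨(y : G ⧸ N), by rw [← hy]; rfl⟩
    · intro hg
      obtain ⟨y', hy⟩ := isConj_iff.mp hg
      obtain ⟨y, rfl⟩ := QuotientGroup.mk_surjective y'
      have h1 : ((y * x * y⁻¹ : G) : G ⧸ N) = (g : G ⧸ N) := hy
      have h2 : (y * x * y⁻¹)⁻¹ * g ∈ N := QuotientGroup.eq.mp h1
      have h3 : y⁻¹ * ((y * x * y⁻¹)⁻¹ * g) * y⁻¹⁻¹ ∈ N :=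
        (inferInstance : N.Normal).conj_mem _ h2 y⁻¹
      have h4 := h _ h3
      refine h4.trans ?_
      rw [isConj_iff]
      exact ⟨y, by group⟩
  have hcard : Nat.card {g : G // IsConj x g} =
      Nat.card N * Nat.card {y : G ⧸ N // IsConj (x : G ⧸ N) y} := by
    have e := QuotientGroup.preimageMkEquivSubgroupProdSet N {y : G ⧸ N | IsConj (x : G ⧸ N) y}
    rw [← hset] at e
    have := Nat.card_congr e
    rw [Nat.card_prod] at this
    exact this
  rw [card_class_eq_index, card_class_eq_index] at hcard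
  have e1 := (Subgroup.centralizer ({x} : Set G)).card_mul_index
  have e2 := (Subgroup.centralizer ({(x : G ⧸ N)} : Set (G ⧸ N))).card_mul_index
  have e3 := N.card_mul_index
  rw [Subgroup.index_eq_card] at e3
  rw [hcard] at e1
  have hpos : 0 < Nat.card N * (Subgroup.centralizer ({(x : G ⧸ N)} : Set (G ⧸ N))).index := by
    apply Nat.mul_pos Nat.card_pos
    exact Nat.pos_of_ne_zero (Subgroup.index_ne_zero_of_finite)
  apply Nat.eq_of_mul_eq_mul_right hpos
  rw [e1, ← e3, ← e2]
  ring

theorem TwoClassData.card_centralizer_quotient [Finite G] {χ : IrrCharacter G} {c : G} {k n : ℕ}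
    (D : TwoClassData χ c k n) {x : G} (hx : x ∉ otherKer χ) :
    Nat.card (Subgroup.centralizer ({x} : Set G)) =
      Nat.card (Subgroup.centralizer ({(x : G ⧸ otherKer χ)} : Set (G ⧸ otherKer χ))) :=
  Cfsg.Agent.Lib.Helper83.card_centralizer_quotient (otherKer χ) x (fun _ ha => D.isConj_mul hx ha)

/-- for `x ∉ N`, `|C_G(x)| * |N|` divides `|G|`. -/
theorem TwoClassData.card_centralizer_mul_dvd [Finite G] {χ : IrrCharacter G} {c : G} {k n : ℕ}
    (D : TwoClassData χ c k n) {x : G} (hx : x ∉ otherKer χ) :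
    Nat.card (Subgroup.centralizer ({x} : Set G)) * Nat.card (otherKer χ) ∣ Nat.card G := by
  rw [D.card_centralizer_quotient hx, ← (otherKer χ).card_mul_index, Subgroup.index_eq_card,
    mul_comm]
  exact Nat.mul_dvd_mul_left _ (Subgroup.card_subgroup_dvd_card _)

theorem ucs_lemma {Q : Type*} [Group Q] [Group.IsNilpotent Q] (M : Subgroup Q)
    (h : ∀ z, z ∉ M → (∀ g, z * g * z⁻¹ * g⁻¹ ∈ M) → ∀ a ∈ M, ∃ g, z * g * z⁻¹ * g⁻¹ = a) :
    ∃ i, Subgroup.upperCentralSeries Q i = M := by
  classical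
  obtain ⟨n, hn⟩ := Group.IsNilpotent.nilpotent (G := Q)
  by_cases hall : ∀ i, Subgroup.upperCentralSeries Q i ≤ M
  · exact ⟨n, le_antisymm (hall n) (by rw [hn]; exact le_top)⟩
  · push Not at hall
    have hfind := Nat.find_spec hall
    have hmin := fun m => Nat.find_min hall (m := m)
    set i₀ := Nat.find hall with hi₀
    have h0 : i₀ ≠ 0 := by
      intro h0
      rw [h0] at hfind
      simp at hfind
    obtain ⟨i, hi⟩ := Nat.exists_eq_succ_of_ne_zero h0
    have hle : Subgroup.upperCentralSeries Q i ≤ M := by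
      have := hmin i (by omega)
      simpa using this
    rw [hi] at hfind
    obtain ⟨z, hz, hzM⟩ := SetLike.not_le_iff_exists.mp hfind
    have hz' := Subgroup.mem_upperCentralSeries_succ_iff.mp hz
    refine ⟨i, le_antisymm hle ?_⟩
    intro a ha
    obtain ⟨g, rfl⟩ := h z hzM (fun g => hle (hz' g)) a ha
    exact hz' g

end Cfsg.Agent.Lib.Helper83
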