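import Cfsg.Agent.Lib.Helper83.TwoClassP

set_option autoImplicit false

open scoped ComplexConjugate

namespace Cfsg.Agent.Lib.Helper83

universe u

variable {G : Type u} [Group G]

/-- conjugation action of `G` on functions on a normal subgroup. -/
@[reducible] def conjFunAction (N : Subgroup G) [N.Normal] : MulAction G (N → ℂ) where
  smul g f := fun n => f (MulAut.conjNormal g⁻¹ n)
  one_smul f := by funext n; show f (MulAut.conjNormal (1 : G)⁻¹ n) = f n; simp
  mul_smul g h f := by
    funext n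
    show f (MulAut.conjNormal (g * h)⁻¹ n) = f (MulAut.conjNormal h⁻¹ (MulAut.conjNormal g⁻¹ n))
    rw [mul_inv_rev, map_mul]; rfl

theorem conjFunAction_smul (N : Subgroup G) [N.Normal] (g : G) (f : N → ℂ) (n : N) :
    (conjFunAction N).smul g f n = f (MulAut.conjNormal g⁻¹ n) := rfl

theorem card_irr_ne_le [Finite G] (t : IrrCharacter G) :
    Nat.card {ψ : IrrCharacter G // ψ ≠ t} ≤ Nat.card G - 1 := by
  classical
  have := Fintype.ofFinite (IrrCharacter G)
  have h1 : Nat.card {ψ : IrrCharacter G // ψ ≠ t} = Nat.card (IrrCharacter G) - 1 := by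
    rw [Nat.card_eq_fintype_card, Nat.card_eq_fintype_card]
    exact Set.card_ne_eq t
  rw [h1]
  exact Nat.sub_le_sub_right card_irr_le 1

theorem index_inertia_le [Finite G] (N : Subgroup G) [N.Normal] (μ : IrrCharacter N)
    (hμ : (μ : N → ℂ) ≠ fun _ => 1) :
    (@MulAction.stabilizer G (N → ℂ) _ (conjFunAction N) (μ : N → ℂ)).index ≤ Nat.card N - 1 := by
  classical
  let _ := conjFunAction N
  rw [MulAction.index_stabilizer, ← Nat.card_coe_set_eq]
  refine le_trans ?_ (card_irr_ne_le (⟨_, isIrr_trivial⟩ : IrrCharacter N))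
  have hmem : ∀ f ∈ MulAction.orbit G (μ : N → ℂ), IsIrrCharacter N f ∧ f ≠ fun _ => 1 := by
    rintro f ⟨g, rfl⟩
    constructor
    · exact isIrr_comp_surjective (MulAut.conjNormal g⁻¹ : N ≃* N).toMonoidHom
        (MulAut.conjNormal g⁻¹ : N ≃* N).surjective μ.2
    · intro h
      apply hμ
      funext n
      have := congrFun h (MulAut.conjNormal g n)
      have h2 : (g • (μ : N → ℂ)) (MulAut.conjNormal g n) = (μ : N → ℂ) n := by
        show (μ : N → ℂ) (MulAut.conjNormal g⁻¹ (MulAut.conjNormal g n)) = _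
        rw [← MulAut.mul_apply, ← map_mul]; simp
      rw [← h2]; exact this
  apply Nat.card_le_card_of_injective
    (fun f : MulAction.orbit G (μ : N → ℂ) =>
      (⟨⟨f.1, (hmem f.1 f.2).1⟩, fun h => (hmem f.1 f.2).2 (congrArg Subtype.val h)⟩ :
        {ψ : IrrCharacter N // ψ ≠ ⟨_, isIrr_trivial⟩}))
  intro a b hab
  apply Subtype.ext
  exact congrArg (fun z => z.1.1) hab


theorem mem_inertia_iff (N : Subgroup G) [N.Normal] (μ : N → ℂ) (g : G) :
    g ∈ @MulAction.stabilizer G (N → ℂ) _ (conjFunAction N) μ ↔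
      ∀ n n' : N, (n' : G) = g * n * g⁻¹ → μ n' = μ n := by
  let _ := conjFunAction N
  rw [MulAction.mem_stabilizer_iff]
  constructor
  · intro h n n' hn
    have h1 := congrFun h n'
    have h2 : (g • μ) n' = μ (MulAut.conjNormal g⁻¹ n') := rfl
    rw [h2] at h1
    rw [← h1]
    congr 1
    apply Subtype.ext
    rw [MulAut.conjNormal_apply, hn]
    group
  · intro h
    funext n
    show μ (MulAut.conjNormal g⁻¹ n) = μ n
    symm
    apply h
    rw [MulAut.conjNormal_apply]
    group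

theorem inertia_isPGroup_aux [Finite G] (N : Subgroup G) [N.Normal] (p : ℕ) [Fact p.Prime]
    (hp : IsPGroup p N) (hcomm' : IsMulCommutative N)
    (hcent : ∀ b ∈ N, b ≠ 1 → IsPGroup p (Subgroup.centralizer ({b} : Set G)))
    (μ : IrrCharacter N) (hμ : (μ : N → ℂ) ≠ fun _ => 1) :
    IsPGroup p (@MulAction.stabilizer G (N → ℂ) _ (conjFunAction N) (μ : N → ℂ)) := by
  classical
  have hpp : p.Prime := Fact.out
  set T := @MulAction.stabilizer G (N → ℂ) _ (conjFunAction N) (μ : N → ℂ) with hT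
  let _ : CommGroup N := { (inferInstance : Group N) with mul_comm := hcomm'.is_comm.comm }
  have hμ1 : (μ : N → ℂ) 1 = 1 := isIrr_one_of_comm μ.2
  have hmul : ∀ a b : N, (μ : N → ℂ) (a * b) = (μ : N → ℂ) a * (μ : N → ℂ) b :=
    isIrr_linear_mul μ.2 hμ1
  let μh : N →* ℂ := { toFun := μ, map_one' := hμ1, map_mul' := hmul }
  obtain ⟨a, ha⟩ : ∃ a : N, (μ : N → ℂ) a ≠ 1 := by
    by_contra h
    push Not at h
    exact hμ (funext h)
  rw [IsPGroup.iff_card]
  refine ⟨_, Nat.eq_prime_pow_of_unique_prime_dvd (Nat.card_pos).ne' ?_⟩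
  intro q hq hqd
  by_contra hqp
  have : Fact q.Prime := ⟨hq⟩
  obtain ⟨y, hy⟩ := exists_prime_orderOf_dvd_card' q hqd
  have hy' : orderOf (y : G) = q := by rw [← hy]; exact Subgroup.orderOf_coe y
  have hcop : ∀ j : ℕ, Nat.Coprime q (p ^ j) :=
    fun j => Nat.Coprime.pow_right j ((Nat.coprime_primes hq hpp).mpr hqp)
  have := Fintype.ofFinite (Subgroup.zpowers (y : G))
  let b : N := ∏ t : Subgroup.zpowers (y : G), MulAut.conjNormal (t : G) a
  have hb_fix : MulAut.conjNormal (y : G) b = b := by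
    show MulAut.conjNormal (y : G) (∏ t : Subgroup.zpowers (y : G), MulAut.conjNormal (t : G) a) = _
    rw [map_prod]
    refine Fintype.prod_equiv (Equiv.mulLeft (⟨y, Subgroup.mem_zpowers _⟩ : Subgroup.zpowers (y : G)))
      _ _ (fun t => ?_)
    rw [← MulAut.mul_apply, ← map_mul]
    rfl
  have hzT : ∀ t : Subgroup.zpowers (y : G), (t : G) ∈ T := by
    intro t
    exact (Subgroup.zpowers_le.mpr y.2) t.2
  have hμb : (μ : N → ℂ) b = (μ : N → ℂ) a ^ q := by
    have h1 : μh b = ∏ t : Subgroup.zpowers (y : G), μh (MulAut.conjNormal (t : G) a) :=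
      map_prod μh _ _
    have h2 : ∀ t : Subgroup.zpowers (y : G), μh (MulAut.conjNormal (t : G) a) = (μ : N → ℂ) a := by
      intro t
      exact (mem_inertia_iff N μ t).mp (hzT t) a _ (MulAut.conjNormal_apply _ _)
    have h3 : μh b = (μ : N → ℂ) a ^ q := by
      rw [h1, Finset.prod_congr rfl (fun t _ => h2 t), Finset.prod_const, Finset.card_univ,
        ← Nat.card_eq_fintype_card, Nat.card_zpowers, hy']
    exact h3
  have hb1 : (b : G) ≠ 1 := by
    intro h
    have hb : b = 1 := Subtype.ext h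
    rw [hb, hμ1] at hμb
    obtain ⟨j, hj⟩ := hp a
    have h4 : (μ : N → ℂ) a ^ (p ^ j) = 1 := by
      have : μh (a ^ (p ^ j)) = μh a ^ (p ^ j) := map_pow μh a _
      rw [hj] at this
      exact this.symm.trans hμ1
    have h5 : orderOf ((μ : N → ℂ) a) ∣ 1 := by
      rw [← Nat.Coprime.gcd_eq_one (hcop j)]
      exact Nat.dvd_gcd (orderOf_dvd_of_pow_eq_one hμb.symm) (orderOf_dvd_of_pow_eq_one h4)
    exact ha (orderOf_eq_one_iff.mp (Nat.dvd_one.mp h5))
  have hyc : (y : G) ∈ Subgroup.centralizer ({(b : G)} : Set G) := by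
    rw [Subgroup.mem_centralizer_iff]
    intro z hz
    rw [Set.mem_singleton_iff] at hz
    subst hz
    have := congrArg Subtype.val hb_fix
    rw [MulAut.conjNormal_apply] at this
    calc (b : G) * y = ((y : G) * b * (y : G)⁻¹) * y := by rw [this]
      _ = y * b := by group
  obtain ⟨j, hj⟩ := hcent b b.2 hb1 ⟨y, hyc⟩
  have hj' : (y : G) ^ (p ^ j) = 1 := by simpa using congrArg Subtype.val hj
  have h6 : q ∣ p ^ j := by rw [← hy']; exact orderOf_dvd_of_pow_eq_one hj'
  exact hqp ((Nat.prime_dvd_prime_iff_eq hq hpp).mp (hq.dvd_of_dvd_pow h6))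

theorem TwoClassData.inertia_isPGroup [Finite G] {χ : IrrCharacter G} {c : G} {k n : ℕ}
    (D : TwoClassData χ c k n) (p : ℕ) [Fact p.Prime] (hp : IsPGroup p (otherKer χ))
    (μ : IrrCharacter (otherKer χ)) (hμ : (μ : otherKer χ → ℂ) ≠ fun _ => 1) :
    IsPGroup p (@MulAction.stabilizer G (otherKer χ → ℂ) _ (conjFunAction (otherKer χ))
      (μ : otherKer χ → ℂ)) := by
  obtain ⟨p', _, hcomm, _⟩ := D.elementaryAbelian
  exact inertia_isPGroup_aux (otherKer χ) p hp hcomm
    (fun b hb hb1 => D.centralizer_isPGroup p hp hb hb1) μ hμ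

theorem TwoClassData.inertia_sylow [Finite G] {χ : IrrCharacter G} {c : G} {k n : ℕ}
    (D : TwoClassData χ c k n) (p : ℕ) [Fact p.Prime] (hp : IsPGroup p (otherKer χ))
    (μ : IrrCharacter (otherKer χ)) (hμ : (μ : otherKer χ → ℂ) ≠ fun _ => 1) :
    ∃ P : Sylow p G, ∀ g : G, g ∈ (P : Subgroup G) ↔
      ∀ n n' : otherKer χ, (n' : G) = g * n * g⁻¹ →
        (μ : otherKer χ → ℂ) n' = (μ : otherKer χ → ℂ) n := by
  set T := @MulAction.stabilizer G (otherKer χ → ℂ) _ (conjFunAction (otherKer χ))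
      (μ : otherKer χ → ℂ) with hT
  have h1 : IsPGroup p T := D.inertia_isPGroup p hp μ hμ
  have h2 : T.index ≤ k := by
    have := index_inertia_le (otherKer χ) μ hμ
    rw [D.card_otherKer] at this
    simpa using this
  obtain ⟨P, hP⟩ := h1.exists_le_sylow
  obtain ⟨P', hP'⟩ := D.centralizer_sylow p hp D.c_mem D.c_ne
  have h3 : (P : Subgroup G).index = k := by
    rw [← D.index_centralizer D.c_mem D.c_ne, hP']
    have e1 := (P : Subgroup G).card_mul_index
    have e2 := (P' : Subgroup G).card_mul_index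
    rw [Sylow.card_eq_multiplicity] at e1 e2
    have hpos : 0 < p ^ (Nat.card G).factorization p := pow_pos (Fact.out : p.Prime).pos _
    exact Nat.eq_of_mul_eq_mul_left hpos (e1.trans e2.symm)
  have h4 : T = P := by
    apply Subgroup.eq_of_le_of_card_ge hP
    have e1 := (P : Subgroup G).card_mul_index
    have e2 := T.card_mul_index
    rw [h3] at e1
    have h5 : Nat.card (P : Subgroup G) * k ≤ Nat.card T * k := by
      rw [e1, ← e2]
      exact Nat.mul_le_mul_left _ h2
    exact Nat.le_of_mul_le_mul_right h5 D.k_pos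
  refine ⟨P, fun g => ?_⟩
  rw [← h4]
  exact mem_inertia_iff _ _ g

end Cfsg.Agent.Lib.Helper83
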