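import Cfsg.Agent.Lib.Helper83.TwoClassQ

set_option autoImplicit false

open scoped ComplexConjugate

namespace Cfsg.Agent.Lib.Helper83

universe u

variable {G : Type u} [Group G]

theorem TwoClassData.card_otherKer_pow [Finite G] {χ : IrrCharacter G} {c : G} {k n : ℕ}
    (D : TwoClassData χ c k n) (p : ℕ) [Fact p.Prime] (hp : IsPGroup p (otherKer χ)) :
    ∃ j : ℕ, j ≠ 0 ∧ Nat.card (otherKer χ) = p ^ j := by
  obtain ⟨j, hj⟩ := IsPGroup.iff_card.mp hp
  refine ⟨j, ?_, hj⟩
  rintro rfl
  rw [D.card_otherKer] at hj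
  have := D.k_pos
  simp at hj
  omega

/-- a `p`-subgroup `C` of `C_G(x)`, `x ∉ N`, satisfies `|C| * |N| ≤ |P|`. -/
theorem TwoClassData.card_mul_le [Finite G] {χ : IrrCharacter G} {c : G} {k n : ℕ}
    (D : TwoClassData χ c k n) (p : ℕ) [Fact p.Prime] (hp : IsPGroup p (otherKer χ))
    (P : Sylow p G) {x : G} (hx : x ∉ otherKer χ) (C : Subgroup G) (hC : IsPGroup p C)
    (hCx : C ≤ Subgroup.centralizer ({x} : Set G)) :
    Nat.card C * Nat.card (otherKer χ) ≤ Nat.card (P : Subgroup G) := by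
  have hpp : p.Prime := Fact.out
  obtain ⟨j, _, hj⟩ := D.card_otherKer_pow p hp
  obtain ⟨e, he⟩ := IsPGroup.iff_card.mp hC
  have h1 : Nat.card C * Nat.card (otherKer χ) ∣ Nat.card G :=
    (Nat.mul_dvd_mul_right (Subgroup.card_dvd_of_le hCx) _).trans (D.card_centralizer_mul_dvd hx)
  rw [he, hj, ← pow_add] at h1 ⊢
  rw [Sylow.card_eq_multiplicity]
  exact Nat.pow_le_pow_right hpp.pos
    ((hpp.pow_dvd_iff_le_factorization (Nat.card_pos).ne').mp h1)

theorem TwoClassData.center_le [Finite G] {χ : IrrCharacter G} {c : G} {k n : ℕ}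
    (D : TwoClassData χ c k n) (p : ℕ) [Fact p.Prime] (hp : IsPGroup p (otherKer χ))
    (P : Sylow p G) :
    (Subgroup.center ↥(P : Subgroup G)).map (P : Subgroup G).subtype ≤ otherKer χ := by
  rintro _ ⟨z, hz, rfl⟩
  by_contra hzN
  have hle : (P : Subgroup G) ≤ Subgroup.centralizer ({((P : Subgroup G).subtype z)} : Set G) := by
    intro g hg
    rw [Subgroup.mem_centralizer_iff]
    intro y hy
    rw [Set.mem_singleton_iff] at hy
    subst hy
    have := Subgroup.mem_center_iff.mp hz ⟨g, hg⟩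
    exact (congrArg Subtype.val this).symm
  have h1 := D.card_mul_le p hp P hzN P P.2 hle
  obtain ⟨j, hj0, hj⟩ := D.card_otherKer_pow p hp
  have h2 : 1 < Nat.card (otherKer χ) := by
    rw [hj]; exact Nat.one_lt_pow hj0 (Fact.out : p.Prime).one_lt
  have h3 : 0 < Nat.card (P : Subgroup G) := Nat.card_pos
  nlinarith

theorem TwoClassData.center_eq_iff [Finite G] {χ : IrrCharacter G} {c : G} {k n : ℕ}
    (D : TwoClassData χ c k n) (p : ℕ) [Fact p.Prime] (hp : IsPGroup p (otherKer χ))
    (P : Sylow p G) :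
    (Subgroup.center ↥(P : Subgroup G)).map (P : Subgroup G).subtype = otherKer χ ↔
      (P : Subgroup G).Normal := by
  constructor
  · intro h
    have hcent : ∀ x ∈ otherKer χ, x ≠ 1 → Subgroup.centralizer ({x} : Set G) = P := by
      intro x hx hx1
      apply P.3 (D.centralizer_isPGroup p hp hx hx1)
      intro g hg
      rw [← h] at hx
      obtain ⟨z, hz, rfl⟩ := hx
      rw [Subgroup.mem_centralizer_iff]
      intro y hy
      rw [Set.mem_singleton_iff] at hy
      subst hy
      have := Subgroup.mem_center_iff.mp hz ⟨g, hg⟩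
      exact (congrArg Subtype.val this).symm
    refine ⟨fun x hx g => ?_⟩
    have hc' : g⁻¹ * c * g⁻¹⁻¹ ∈ otherKer χ := (otherKer_normal χ).conj_mem c D.c_mem g⁻¹
    have hc1 : g⁻¹ * c * g⁻¹⁻¹ ≠ 1 := by
      intro h1
      apply D.c_ne
      have : c = g * (g⁻¹ * c * g⁻¹⁻¹) * g⁻¹ := by group
      rw [this, h1]; group
    rw [← hcent _ hc' hc1] at hx
    rw [← hcent c D.c_mem D.c_ne]
    rw [Subgroup.mem_centralizer_iff] at hx ⊢
    intro y hy
    rw [Set.mem_singleton_iff] at hy
    subst hy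
    have h2 := hx _ (Set.mem_singleton _)
    calc y * (g * x * g⁻¹) = g * ((g⁻¹ * y * g⁻¹⁻¹) * x) * g⁻¹ := by group
      _ = g * (x * (g⁻¹ * y * g⁻¹⁻¹)) * g⁻¹ := by rw [h2]
      _ = g * x * g⁻¹ * y := by group
  · intro hn
    apply le_antisymm (D.center_le p hp P)
    have hNP : otherKer χ ≤ P := hp.le_sylow_of_normal P
    have hnt : Nontrivial ↥(P : Subgroup G) := by
      refine ⟨⟨c, hNP D.c_mem⟩, 1, fun h => D.c_ne (congrArg Subtype.val h)⟩
    have hcnt : Nontrivial (Subgroup.center ↥(P : Subgroup G)) := P.2.center_nontrivial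
    apply D.otherKer_le _ ConjAct.normal_of_characteristic_of_normal
    intro hbot
    obtain ⟨z, hz⟩ := exists_ne (1 : Subgroup.center ↥(P : Subgroup G))
    apply hz
    have : (P : Subgroup G).subtype (z : ↥(P : Subgroup G)) ∈
        (Subgroup.center ↥(P : Subgroup G)).map (P : Subgroup G).subtype :=
      Subgroup.mem_map_of_mem _ z.2
    rw [hbot, Subgroup.mem_bot] at this
    apply Subtype.ext
    apply Subtype.ext
    exact this

theorem TwoClassData.exists_ucs [Finite G] {χ : IrrCharacter G} {c : G} {k n : ℕ}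
    (D : TwoClassData χ c k n) (p : ℕ) [Fact p.Prime] (hp : IsPGroup p (otherKer χ))
    (P : Sylow p G) :
    ∃ i : ℕ, Subgroup.upperCentralSeries ↥(P : Subgroup G) i =
      (otherKer χ).subgroupOf (P : Subgroup G) := by
  classical
  have hNP : otherKer χ ≤ P := hp.le_sylow_of_normal P
  have : Group.IsNilpotent ↥(P : Subgroup G) := P.2.isNilpotent
  apply ucs_lemma
  intro z hz hcomm a ha
  set M := (otherKer χ).subgroupOf (P : Subgroup G) with hM
  have hzN : ((z⁻¹ : ↥(P : Subgroup G)) : G) ∉ otherKer χ := by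
    intro h
    apply hz
    rw [hM, Subgroup.mem_subgroupOf]
    simpa using (otherKer χ).inv_mem h
  let C : Subgroup ↥(P : Subgroup G) := Subgroup.centralizer ({z⁻¹} : Set ↥(P : Subgroup G))
  have hCle : C.map (P : Subgroup G).subtype ≤
      Subgroup.centralizer ({((z⁻¹ : ↥(P : Subgroup G)) : G)} : Set G) := by
    rintro _ ⟨g, hg, rfl⟩
    rw [Subgroup.mem_centralizer_iff]
    intro y hy
    rw [Set.mem_singleton_iff] at hy
    subst hy
    have := Subgroup.mem_centralizer_iff.mp hg z⁻¹ (Set.mem_singleton _)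
    exact congrArg Subtype.val this
  have hCp : IsPGroup p (C.map (P : Subgroup G).subtype) :=
    P.2.to_le (Subgroup.map_subtype_le C)
  have h1 := D.card_mul_le p hp P hzN _ hCp hCle
  rw [Subgroup.card_map_of_injective (Subgroup.subtype_injective _), ← C.card_mul_index] at h1
  have h2 : Nat.card (otherKer χ) ≤ C.index := Nat.le_of_mul_le_mul_left h1 Nat.card_pos
  have h3 : Nat.card M = Nat.card (otherKer χ) :=
    Nat.card_congr (Subgroup.subgroupOfEquivOfLe hNP).toEquiv
  have h4 : Nat.card M ≤ Nat.card {w : ↥(P : Subgroup G) // IsConj z⁻¹ w} := by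
    rw [card_class_eq_index, h3]; exact h2
  let f : {w : ↥(P : Subgroup G) // IsConj z⁻¹ w} → M := fun w => ⟨z * w.1, by
    obtain ⟨g, hg⟩ := isConj_iff.mp w.2
    rw [← hg]
    have := hcomm g
    simpa [mul_assoc] using this⟩
  have hf : Function.Injective f := by
    intro w₁ w₂ h
    apply Subtype.ext
    have := congrArg Subtype.val h
    exact mul_left_cancel this
  obtain ⟨w, hw⟩ := (hf.bijective_of_nat_card_le h4).2 ⟨a, ha⟩
  obtain ⟨g, hg⟩ := isConj_iff.mp w.2
  refine ⟨g, ?_⟩
  have := congrArg Subtype.val hw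
  simp only [f] at this
  rw [← this, ← hg]
  group

end Cfsg.Agent.Lib.Helper83
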